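import Cfsg.Agent.H20.HarDef

set_option autoImplicit false
set_option maxHeartbeats 800000
set_option linter.unusedSectionVars false
set_option linter.unusedVariables false

/-! Harada's theorem on 2-groups with a self-centralizing `E₈`: the pieces `f16` and `g16`. -/

namespace Cfsg.Agent.H78.HarG
open Subgroup Cfsg.Agent.H20.Har

variable {S : Type*} [Group S] [Finite S]

/-- In a 2-group the index of a subgroup is a power of 2. -/
theorem pow_two (h2 : IsPGroup 2 S) {M L : Subgroup S} (h : M ≤ L) :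
    ∃ c : ℕ, Nat.card L = 2 ^ c * Nat.card M := by
  obtain ⟨k, hk⟩ := Subgroup.card_dvd_of_le h
  obtain ⟨n, hn⟩ := (IsPGroup.iff_card (p := 2)).1 (h2.to_subgroup L)
  have h3 : k ∣ 2 ^ n := by rw [← hn, hk]; exact Dvd.intro_left _ rfl
  obtain ⟨c, -, hc⟩ := (Nat.dvd_prime_pow Nat.prime_two).1 h3
  exact ⟨c, by rw [hk, hc, mul_comm]⟩

theorem card_pos' (L : Subgroup S) : 0 < Nat.card L := Nat.card_pos

/-- The commutator map with `f` on a normal abelian subgroup. -/
theorem card_le_fix (V : Subgroup S) (Vn : ∀ v ∈ V, ∀ g : S, g * v * g⁻¹ ∈ V)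
    (Vcomm : ∀ v ∈ V, ∀ w ∈ V, v * w = w * v) (f : S) (M N : Subgroup S) (hMV : M ≤ V)
    (h : ∀ v ∈ M, v * f * v⁻¹ * f⁻¹ ∈ N) :
    Nat.card M ≤ Nat.card ↥(V ⊓ Subgroup.centralizer {f}) * Nat.card N := by
  have hV : ∀ v ∈ V, v * f * v⁻¹ * f⁻¹ ∈ V := by
    intro v hv
    have h1 := Vn v⁻¹ (V.inv_mem hv) f
    have h3 := V.mul_mem hv h1
    have e : v * f * v⁻¹ * f⁻¹ = v * (f * v⁻¹ * f⁻¹) := by group
    rw [e]; exact h3
  let δ : M →* S :=
    { toFun := fun v => v * f * v⁻¹ * f⁻¹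
      map_one' := by simp
      map_mul' := by
        intro x y
        have hx := hMV x.2
        have hy := hMV y.2
        have h1 := Vn (x : S)⁻¹ (V.inv_mem hx) f
        have h3 := Vcomm _ (hV y hy) _ h1
        push_cast
        calc (x : S) * y * f * (x * y : S)⁻¹ * f⁻¹
            = x * ((y * f * (y : S)⁻¹ * f⁻¹) * (f * (x : S)⁻¹ * f⁻¹)) := by group
          _ = x * ((f * (x : S)⁻¹ * f⁻¹) * (y * f * (y : S)⁻¹ * f⁻¹)) := by rw [h3]
          _ = _ := by group }
  have h1 := Subgroup.card_mul_index δ.ker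
  rw [Subgroup.index_ker] at h1
  have h3 : Nat.card δ.ker ≤ Nat.card ↥(V ⊓ Subgroup.centralizer {f}) := by
    refine Nat.card_le_card_of_injective (fun x : δ.ker => (⟨(x : M), ?_⟩ : ↥(V ⊓ Subgroup.centralizer {f}))) ?_
    · refine Subgroup.mem_inf.2 ⟨hMV x.1.2, ?_⟩
      rw [Subgroup.mem_centralizer_singleton_iff]
      have h4 : ((x : M) : S) * f * ((x : M) : S)⁻¹ * f⁻¹ = 1 := x.2
      rw [mul_inv_eq_one, mul_inv_eq_iff_eq_mul] at h4
      exact h4
    · intro x y hxy
      have := congrArg (fun z : ↥(V ⊓ Subgroup.centralizer {f}) => (z : S)) hxy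
      exact Subtype.ext (Subtype.ext this)
  have h4 : Nat.card δ.range ≤ Nat.card N := by
    refine Subgroup.card_le_of_le ?_
    rintro _ ⟨v, rfl⟩
    exact h v v.2
  rw [← h1]
  exact Nat.mul_le_mul h3 h4

theorem f16 (h2 : IsPGroup 2 S) (V : Subgroup S) (Vn : ∀ v ∈ V, ∀ g : S, g * v * g⁻¹ ∈ V)
    (Vcomm : ∀ v ∈ V, ∀ w ∈ V, v * w = w * v) (Vsq : ∀ v ∈ V, v * v = 1) (V16 : Nat.card V = 16)
    (hCV : ∀ x : S, (∀ v ∈ V, x * v = v * x) → x ∈ V) (F : Subgroup S) (hVF : V ≤ F)
    (hfree : ∀ f ∈ F, f ∉ V → Nat.card ↥(V ⊓ Subgroup.centralizer {f}) ≤ 4) (hS : Nat.card S ≤ 128)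
    (hF : Nat.card S < 4 * Nat.card F)
    (hcom : Nat.card S = 128 → ∃ s : S, ∃ f ∈ F, s * f * s⁻¹ * f⁻¹ ∉ V) : R4 S := by
  intro L N hNL hc hs
  have hN1 : Nat.card ↥(N ⊓ V) ≤ Nat.card N := Subgroup.card_le_of_le inf_le_left
  have hLV1 : Nat.card ↥(L ⊓ V) ≤ 16 := by rw [← V16]; exact Subgroup.card_le_of_le inf_le_right
  have hNVp : 0 < Nat.card ↥(N ⊓ V) := card_pos' _
  have hLVp : 0 < Nat.card ↥(L ⊓ V) := card_pos' _
  by_cases hi : ∃ f ∈ L, f ∈ F ∧ f ∉ V
  · obtain ⟨f, hfL, hfF, hfV⟩ := hi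
    have h4 : Nat.card ↥(L ⊓ V) ≤ 4 * Nat.card ↥(N ⊓ V) := by
      refine (card_le_fix V Vn Vcomm f (L ⊓ V) (N ⊓ V) inf_le_right ?_).trans
        (Nat.mul_le_mul_right _ (hfree f hfF hfV))
      intro v hv
      refine Subgroup.mem_inf.2 ⟨hc v (Subgroup.mem_inf.1 hv).1 f hfL, ?_⟩
      have hvV := (Subgroup.mem_inf.1 hv).2
      have h1 := Vn v⁻¹ (V.inv_mem hvV) f
      have e : v * f * v⁻¹ * f⁻¹ = v * (f * v⁻¹ * f⁻¹) := by group
      rw [e]; exact V.mul_mem hvV h1
    have h5 := card_mul_le L V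
    rw [V16] at h5
    by_cases hNV : N ≤ V
    · by_cases h128 : Nat.card S ≤ 64
      · have h6 : Nat.card L * 16 ≤ 64 * Nat.card ↥(L ⊓ V) := h5.trans (Nat.mul_le_mul_right _ h128)
        omega
      · have hS128 : Nat.card S = 128 := by
          obtain ⟨n, hn⟩ := (IsPGroup.iff_card (p := 2)).1 h2
          rw [hn] at hS h128 ⊢
          have h7 : 6 < n := by
            by_contra hh
            exact h128 ((Nat.pow_le_pow_right (by norm_num) (not_lt.1 hh)).trans (by norm_num))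
          have h8 : n < 8 := by
            by_contra hh
            have := (Nat.pow_le_pow_right (n := 2) (by norm_num) (not_lt.1 hh)).trans hS
            norm_num at this
          have : n = 7 := by omega
          rw [this]; norm_num
        obtain ⟨c, hc1⟩ := pow_two h2 (inf_le_left : L ⊓ V ≤ L)
        by_cases hc2 : c ≤ 2
        · have h9 : 2 ^ c ≤ 4 := (Nat.pow_le_pow_right (by norm_num) hc2).trans (by norm_num)
          have : Nat.card L ≤ 4 * Nat.card ↥(L ⊓ V) := by rw [hc1]; exact Nat.mul_le_mul_right _ h9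
          omega
        · exfalso
          have h9 : 8 ≤ 2 ^ c := by
            have := Nat.pow_le_pow_right (n := 2) (by norm_num) (by omega : 3 ≤ c)
            norm_num at this; exact this
          have h10 : 8 * Nat.card ↥(L ⊓ V) ≤ Nat.card L := by rw [hc1]; exact Nat.mul_le_mul_right _ h9
          obtain ⟨s, f', hf', hsf⟩ := hcom hS128
          apply hsf
          -- `L V = S`
          have hVnorm : V.Normal := ⟨fun v hv g => Vn v hv g⟩
          have htop : L ⊔ V = ⊤ := by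
            have h11 : Nat.card ↥(L ⊔ V) * Nat.card ↥(L ⊓ V) = Nat.card L * Nat.card V := by
              have e1 := Subgroup.relIndex_sup_right (K := V) (H := L)
              have e2 := Subgroup.relIndex_mul_relIndex ⊥ V (L ⊔ V) bot_le le_sup_right
              have e3 := Subgroup.relIndex_mul_relIndex ⊥ (L ⊓ V) L bot_le inf_le_left
              rw [Subgroup.relIndex_bot_left, Subgroup.relIndex_bot_left] at e2 e3
              rw [Subgroup.inf_relIndex_left] at e3
              rw [e1] at e2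
              rw [← e2, ← e3]; ring
            apply Subgroup.eq_top_of_card_eq
            apply le_antisymm (Subgroup.card_le_card_group _)
            rw [V16] at h11
            rw [hS128]
            by_contra hlt
            have : Nat.card ↥(L ⊔ V) * Nat.card ↥(L ⊓ V) < 128 * Nat.card ↥(L ⊓ V) :=
              Nat.mul_lt_mul_of_pos_right (not_le.1 hlt) hLVp
            omega
          have hmem : ∀ x : S, ∃ l ∈ L, ∃ v ∈ V, l * v = x := by
            intro x
            have : x ∈ L ⊔ V := by rw [htop]; trivial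
            rwa [Subgroup.mem_sup_of_normal_right] at this
          obtain ⟨l, hl, v, hv, rfl⟩ := hmem s
          obtain ⟨l', hl', v', hv', rfl⟩ := hmem f'
          have h12 := hNV (hc l hl l' hl')
          rw [← QuotientGroup.eq_one_iff] at hv hv' h12 ⊢
          simp only [QuotientGroup.mk_mul, QuotientGroup.mk_inv] at h12 ⊢
          rw [hv, hv', mul_one, mul_one]
          exact h12
    · have h6 : 2 * Nat.card ↥(N ⊓ V) ≤ Nat.card N := by
        obtain ⟨c, hc1⟩ := pow_two h2 (inf_le_left : N ⊓ V ≤ N)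
        rcases c with _ | c
        · exfalso
          rw [pow_zero, one_mul] at hc1
          apply hNV
          have := Subgroup.eq_of_le_of_card_ge (inf_le_left : N ⊓ V ≤ N) hc1.le
          rw [← this]; exact inf_le_right
        · rw [hc1, pow_succ]
          have : 1 ≤ 2 ^ c := Nat.one_le_two_pow
          nlinarith
      have h7 : Nat.card L * 16 ≤ 128 * Nat.card ↥(L ⊓ V) := h5.trans (Nat.mul_le_mul_right _ hS)
      omega
  · push Not at hi
    have h1 : L ⊓ F ≤ L ⊓ V := fun x hx =>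
      Subgroup.mem_inf.2 ⟨(Subgroup.mem_inf.1 hx).1, hi x (Subgroup.mem_inf.1 hx).1 (Subgroup.mem_inf.1 hx).2⟩
    have h3 : Nat.card L * Nat.card F < 4 * Nat.card F * Nat.card ↥(L ⊓ V) :=
      lt_of_le_of_lt ((card_mul_le L F).trans (Nat.mul_le_mul_left _ (Subgroup.card_le_of_le h1)))
        (Nat.mul_lt_mul_of_pos_right hF hLVp)
    have h4 : Nat.card L < 4 * Nat.card ↥(L ⊓ V) := by
      have : Nat.card L * Nat.card F < 4 * Nat.card ↥(L ⊓ V) * Nat.card F := by
        calc _ < _ := h3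
          _ = _ := by ring
      exact lt_of_mul_lt_mul_right this (Nat.zero_le _)
    have h5 : Nat.card L ≤ 2 * Nat.card ↥(L ⊓ V) := by
      obtain ⟨c, hc1⟩ := pow_two h2 (inf_le_left : L ⊓ V ≤ L)
      have h6 : c < 2 := by
        by_contra hh
        have h7 := Nat.pow_le_pow_right (n := 2) (by norm_num) (not_lt.1 hh)
        have : 2 ^ 2 * Nat.card ↥(L ⊓ V) ≤ Nat.card L := by rw [hc1]; exact Nat.mul_le_mul_right _ h7
        omega
      have h7 : 2 ^ c ≤ 2 := by
        have := Nat.pow_le_pow_right (n := 2) (by norm_num) (by omega : c ≤ 1)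
        simpa using this
      rw [hc1]; exact Nat.mul_le_mul_right _ h7
    obtain ⟨d, hd⟩ := pow_two h2 (le_inf (inf_le_left.trans hNL) inf_le_right : N ⊓ V ≤ L ⊓ V)
    by_cases hd3 : d ≤ 3
    · have h6 : 2 ^ d ≤ 8 := (Nat.pow_le_pow_right (by norm_num) hd3).trans (by norm_num)
      have h7 : Nat.card ↥(L ⊓ V) ≤ 8 * Nat.card ↥(N ⊓ V) := by rw [hd]; exact Nat.mul_le_mul_right _ h6
      omega
    · have h6 : 16 ≤ 2 ^ d := by
        have := Nat.pow_le_pow_right (n := 2) (by norm_num) (by omega : 4 ≤ d)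
        norm_num at this; exact this
      have h7 : 16 * Nat.card ↥(N ⊓ V) ≤ Nat.card ↥(L ⊓ V) := by rw [hd]; exact Nat.mul_le_mul_right _ h6
      have h8 : Nat.card ↥(L ⊓ V) = 16 := by omega
      have hVL : V ≤ L := by
        have := Subgroup.eq_of_le_of_card_ge (inf_le_right : L ⊓ V ≤ V) (by rw [V16, h8])
        rw [← this]; exact inf_le_left
      by_cases hN2 : 2 ≤ Nat.card N
      · omega
      · have hN1 : Nat.card N = 1 := by
          have := card_pos' N
          omega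
        have hNb : N = ⊥ := Subgroup.card_eq_one.1 hN1
        have hLV : L ≤ V := by
          intro x hx
          apply hCV
          intro v hv
          have h9 := hc x hx v (hVL hv)
          rw [hNb, Subgroup.mem_bot, mul_inv_eq_one, mul_inv_eq_iff_eq_mul] at h9
          exact h9
        have h10 : Nat.card L ≤ 16 := by rw [← V16]; exact Subgroup.card_le_of_le hLV
        omega

theorem g16 (h2 : IsPGroup 2 S) (V : Subgroup S) (Vn : ∀ v ∈ V, ∀ g : S, g * v * g⁻¹ ∈ V)
    (Vcomm : ∀ v ∈ V, ∀ w ∈ V, v * w = w * v) (Vsq : ∀ v ∈ V, v * v = 1) (V16 : Nat.card V = 16)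
    (hCV : ∀ x : S, (∀ v ∈ V, x * v = v * x) → x ∈ V) (G : Subgroup S) (a t : S) (haa : a * a = 1)
    (hG : ∀ s, s ∈ G ↔ s * a * s⁻¹ * a⁻¹ ∈ V) (hG64 : Nat.card G = 64)
    (hfree : ∀ f ∈ G, f ∉ V → Nat.card ↥(V ⊓ Subgroup.centralizer {f}) ≤ 4) (htG : t ∈ G) (htV : t ∉ V)
    (htt : t * t ∈ V) (htS : ∀ s : S, s * t * s⁻¹ * t⁻¹ ∈ V) : R4 S := by
  have hai : a⁻¹ = a := inv_eq_of_mul_eq_one_left haa
  have hVinv : ∀ v ∈ V, v⁻¹ = v := fun v hv => inv_eq_of_mul_eq_one_left (Vsq v hv)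
  have hVG : V ≤ G := by
    intro v hv
    rw [hG]
    have h1 := Vn v⁻¹ (V.inv_mem hv) a
    have e : v * a * v⁻¹ * a⁻¹ = v * (a * v⁻¹ * a⁻¹) := by group
    rw [e]; exact V.mul_mem hv h1
  have haG : a ∈ G := by
    rw [hG, mul_assoc (a * a), ← mul_inv_rev, mul_inv_cancel]; exact V.one_mem
  set U : Subgroup S := V ⊓ Subgroup.centralizer {t} with hU
  have hUmem : ∀ u, u ∈ U ↔ u ∈ V ∧ u * t = t * u := by
    intro u
    rw [hU, Subgroup.mem_inf, Subgroup.mem_centralizer_singleton_iff]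
  have hU4 : Nat.card U ≤ 4 := hfree t htG htV
  -- `[V,t] ≤ U`
  have hδ : ∀ v ∈ V, v * t * v⁻¹ * t⁻¹ ∈ U := by
    intro v hv
    have h1 := Vn v hv t
    have h3 := Vn v⁻¹ (V.inv_mem hv) t
    have e : v * t * v⁻¹ * t⁻¹ = v * (t * v⁻¹ * t⁻¹) := by group
    refine (hUmem _).2 ⟨by rw [e]; exact V.mul_mem hv h3, ?_⟩
    have h4 : t * t * v = v * (t * t) := Vcomm _ htt _ hv
    have h5 : t * (v * t * v⁻¹ * t⁻¹) * t⁻¹ = (t * v * t⁻¹) * v⁻¹ := by
      calc t * (v * t * v⁻¹ * t⁻¹) * t⁻¹ = (t * v * t⁻¹) * v⁻¹ * (v * (t * t) * v⁻¹ * (t * t)⁻¹) := by group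
        _ = (t * v * t⁻¹) * v⁻¹ := by rw [← h4]; group
    have h6 : v * t * v⁻¹ * t⁻¹ = (t * v * t⁻¹) * v⁻¹ := by
      rw [e]
      have e2 : t * v⁻¹ * t⁻¹ = t * v * t⁻¹ := by rw [hVinv v hv]
      rw [e2, hVinv v hv]
      exact Vcomm v hv _ h1
    have h7 : t * (v * t * v⁻¹ * t⁻¹) * t⁻¹ = v * t * v⁻¹ * t⁻¹ := h5.trans h6.symm
    rw [mul_inv_eq_iff_eq_mul] at h7
    exact h7.symm
  have hU4' : Nat.card U = 4 := by
    have h1 := card_le_fix V Vn Vcomm t V U le_rfl hδ
    rw [V16] at h1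
    change 16 ≤ Nat.card U * Nat.card U at h1
    nlinarith
  have hUn : ∀ g : S, ∀ u ∈ U, g * u * g⁻¹ ∈ U := by
    intro g u hu
    obtain ⟨huV, hut⟩ := (hUmem u).1 hu
    refine (hUmem _).2 ⟨Vn u huV g, ?_⟩
    have h1 := Vcomm _ (Vn u huV g) _ (htS g)
    have h3 : (g * u * g⁻¹) * (g * t * g⁻¹) = (g * t * g⁻¹) * (g * u * g⁻¹) := by
      calc _ = g * (u * t) * g⁻¹ := by group
        _ = g * (t * u) * g⁻¹ := by rw [hut]
        _ = _ := by group
    have h4 : g * t * g⁻¹ = (g * t * g⁻¹ * t⁻¹) * t := by group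
    rw [h4] at h3
    generalize g * t * g⁻¹ * t⁻¹ = w at *
    generalize g * u * g⁻¹ = x at *
    have h5 : w * (x * t) = w * (t * x) := by
      calc w * (x * t) = (w * x) * t := by group
        _ = (x * w) * t := by rw [h1]
        _ = x * (w * t) := by group
        _ = (w * t) * x := h3
        _ = _ := by group
    exact mul_left_cancel h5
  -- `K = C_S(U)`
  set K : Subgroup S := Subgroup.centralizer (U : Set S) with hK
  have hKmem : ∀ x, x ∈ K ↔ ∀ u ∈ U, x * u = u * x := by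
    intro x
    rw [hK, Subgroup.mem_centralizer_iff]
    exact ⟨fun h u hu => (h u hu).symm, fun h u hu => (h u hu).symm⟩
  have hKn : ∀ g : S, ∀ x ∈ K, g * x * g⁻¹ ∈ K := by
    intro g x hx
    rw [hKmem] at hx ⊢
    intro u hu
    have h1 := hUn g⁻¹ u hu
    rw [inv_inv] at h1
    have h3 := hx _ h1
    calc g * x * g⁻¹ * u = g * (x * (g⁻¹ * u * g)) * g⁻¹ := by group
      _ = g * ((g⁻¹ * u * g) * x) * g⁻¹ := by rw [h3]
      _ = _ := by group
  have hVK : V ≤ K := by
    intro v hv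
    rw [hKmem]
    intro u hu
    exact Vcomm v hv u ((hUmem u).1 hu).1
  have hSK : Nat.card S ≤ 2 * Nat.card K := by
    -- a central involution in `U`
    have hUnorm : U.Normal := ⟨fun u hu g => hUn g u hu⟩
    have : Fact (Nat.Prime 2) := ⟨Nat.prime_two⟩
    obtain ⟨z, hzU, hz2, hzc⟩ := Cfsg.Agent.H23.exists_central_orderOf h2 hUnorm (fun hb => by
      rw [hb, Subgroup.card_bot] at hU4'; omega)
    have hz1 : z ≠ 1 := by rintro rfl; rw [orderOf_one] at hz2; omega
    rw [Subgroup.mem_center_iff] at hzc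
    -- a further element
    obtain ⟨u, huU, huz⟩ : ∃ u ∈ U, u ∉ ({1, z} : Set S) := by
      by_contra hno
      push Not at hno
      have h1 : Nat.card U ≤ Nat.card ({1, z} : Set S) :=
        Nat.card_mono (Set.toFinite _) hno
      have h3 : Nat.card ({1, z} : Set S) ≤ 2 := by
        rw [Nat.card_coe_set_eq]
        exact (Set.ncard_insert_le 1 {z}).trans (by rw [Set.ncard_singleton])
      omega
    simp only [Set.mem_insert_iff, Set.mem_singleton_iff, not_or] at huz
    obtain ⟨hu1, huz'⟩ := huz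
    have hzz : z * z = 1 := Vsq z ((hUmem z).1 hzU).1
    have hset : ∀ w ∈ U, w = 1 ∨ w = z ∨ w = u ∨ w = u * z := by
      have hn : ({1, z, u, u * z} : Set S).ncard = 4 := by
        rw [Set.ncard_insert_of_notMem, Set.ncard_insert_of_notMem, Set.ncard_insert_of_notMem,
          Set.ncard_singleton]
        · rw [Set.mem_singleton_iff]
          intro h; exact hz1 (left_eq_mul.1 h)
        · rw [Set.mem_insert_iff, Set.mem_singleton_iff]
          rintro (h | h)
          · exact huz' h.symm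
          · exact hu1 (right_eq_mul.1 h)
        · rw [Set.mem_insert_iff, Set.mem_insert_iff, Set.mem_singleton_iff]
          rintro (h | h | h)
          · exact hz1 h.symm
          · exact hu1 h.symm
          · apply huz'
            have h3 : u * z * z = 1 * z := by rw [← h]
            rwa [mul_assoc, hzz, mul_one, one_mul] at h3
      have hsub : ({1, z, u, u * z} : Set S) ⊆ (U : Set S) := by
        intro w hw
        simp only [Set.mem_insert_iff, Set.mem_singleton_iff] at hw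
        rcases hw with rfl | rfl | rfl | rfl
        · exact U.one_mem
        · exact hzU
        · exact huU
        · exact U.mul_mem huU hzU
      have heq := Set.eq_of_subset_of_ncard_le hsub (by
        rw [hn, ← Nat.card_coe_set_eq]; exact hU4) (Set.toFinite _)
      intro w hw
      have hw' : w ∈ ({1, z, u, u * z} : Set S) := by rw [heq]; exact hw
      simpa only [Set.mem_insert_iff, Set.mem_singleton_iff] using hw'
    have hKu : ∀ x, x * u = u * x → x ∈ K := by
      intro x hx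
      rw [hKmem]
      intro w hw
      rcases hset w hw with rfl | rfl | rfl | rfl
      · rw [mul_one, one_mul]
      · exact hzc x
      · exact hx
      · rw [← mul_assoc, hx, mul_assoc, hzc x, mul_assoc]
    have hKz : ∀ s, s ∉ K → s * u * s⁻¹ = u * z := by
      intro s hs
      rcases hset _ (hUn s u huU) with h | h | h | h
      · exact absurd (conj_eq_one_iff.1 h) hu1
      · exfalso; apply huz'
        rw [mul_inv_eq_iff_eq_mul, ← hzc s] at h
        exact mul_left_cancel h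
      · exact absurd (hKu s (mul_inv_eq_iff_eq_mul.1 h)) hs
      · exact h
    have h1 := card_le_two (⊤ : Subgroup S) K (by
      intro s _ s' _ hsK hs'K
      apply hKu
      have h3 := (hKz s' hs'K).trans (hKz s hsK).symm
      calc s⁻¹ * s' * u = s⁻¹ * (s' * u * s'⁻¹) * s' := by group
        _ = s⁻¹ * (s * u * s⁻¹) * s' := by rw [h3]
        _ = _ := by group)
    rw [top_inf_eq, Subgroup.card_top] at h1
    exact h1
  -- `[V,s] ≤ U` for `s ∈ K`
  have hVK' : ∀ s ∈ K, ∀ v ∈ V, s * v * s⁻¹ * v⁻¹ ∈ U := by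
    intro s hs v hv
    have h1 := Vn v hv s
    -- `s v s⁻¹` and `v` have the same commutator with `t`
    have h3 : (s * v * s⁻¹) * t * (s * v * s⁻¹)⁻¹ * t⁻¹ = v * t * v⁻¹ * t⁻¹ := by
      have hw := htS s⁻¹
      rw [inv_inv] at hw
      have h4 := hδ v hv
      have h5 := (hKmem s).1 hs _ h4
      set w := s⁻¹ * t * s * t⁻¹ with hwdef
      have e1 : s⁻¹ * t * s = w * t := by rw [hwdef]; group
      have h6 : w * (t * v⁻¹ * t⁻¹) = (t * v⁻¹ * t⁻¹) * w := Vcomm _ hw _ (Vn v⁻¹ (V.inv_mem hv) t)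
      have h7 : v * w = w * v := Vcomm v hv w hw
      calc (s * v * s⁻¹) * t * (s * v * s⁻¹)⁻¹ * t⁻¹
          = s * (v * (s⁻¹ * t * s) * v⁻¹ * (s⁻¹ * t * s)⁻¹) * s⁻¹ * (t * (t⁻¹)) := by group
        _ = s * (v * (w * t) * v⁻¹ * (w * t)⁻¹) * s⁻¹ := by rw [e1]; group
        _ = s * ((v * w) * (t * v⁻¹ * t⁻¹) * w⁻¹) * s⁻¹ := by group
        _ = s * (w * v * (t * v⁻¹ * t⁻¹) * w⁻¹) * s⁻¹ := by rw [h7]
        _ = s * ((v * w) * (t * v⁻¹ * t⁻¹) * w⁻¹) * s⁻¹ := by rw [h7]
        _ = s * (v * (w * (t * v⁻¹ * t⁻¹)) * w⁻¹) * s⁻¹ := by group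
        _ = s * (v * ((t * v⁻¹ * t⁻¹) * w) * w⁻¹) * s⁻¹ := by rw [h6]
        _ = (s * (v * t * v⁻¹ * t⁻¹)) * s⁻¹ := by group
        _ = ((v * t * v⁻¹ * t⁻¹) * s) * s⁻¹ := by rw [h5]
        _ = _ := by group
    refine (hUmem _).2 ⟨V.mul_mem h1 (V.inv_mem hv), ?_⟩
    -- `x t x⁻¹ = v t v⁻¹` gives `v⁻¹ x` commutes with `t`
    generalize s * v * s⁻¹ = x at *
    have h4 : x * t * x⁻¹ = v * t * v⁻¹ := mul_right_cancel h3
    have h5 : x * v⁻¹ = v⁻¹ * x := Vcomm x h1 _ (V.inv_mem hv)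
    rw [h5]
    calc v⁻¹ * x * t = v⁻¹ * (x * t * x⁻¹) * x := by group
      _ = v⁻¹ * (v * t * v⁻¹) * x := by rw [h4]
      _ = _ := by group
  have hcK : ∀ x ∈ K, ∀ y ∈ K, x * y * x⁻¹ * y⁻¹ ∈ V := by
    intro x hx y hy
    apply hCV
    intro v hv
    -- `x y v (x y)⁻¹ = y x v (y x)⁻¹`
    have h1 : ∀ x ∈ K, ∀ y ∈ K, ∀ v ∈ V, (x * y) * v * (x * y)⁻¹ =
        (x * v * x⁻¹ * v⁻¹) * ((y * v * y⁻¹ * v⁻¹) * v) := by
      intro x hx y hy v hv
      have h3 := hVK' y hy v hv
      have h4 := hVK' x hx v hv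
      have h5 := (hKmem x).1 hx _ h3
      have h6 := Vcomm _ ((hUmem _).1 h3).1 _ ((hUmem _).1 h4).1
      calc (x * y) * v * (x * y)⁻¹ = x * ((y * v * y⁻¹ * v⁻¹) * v) * x⁻¹ := by group
        _ = (x * (y * v * y⁻¹ * v⁻¹)) * v * x⁻¹ := by group
        _ = ((y * v * y⁻¹ * v⁻¹) * x) * v * x⁻¹ := by rw [h5]
        _ = ((y * v * y⁻¹ * v⁻¹) * (x * v * x⁻¹ * v⁻¹)) * v := by group
        _ = ((x * v * x⁻¹ * v⁻¹) * (y * v * y⁻¹ * v⁻¹)) * v := by rw [h6]
        _ = _ := by group
    have h3 : ∀ v ∈ V, (x * y) * v * (x * y)⁻¹ = (y * x) * v * (y * x)⁻¹ := by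
      intro v hv
      rw [h1 x hx y hy v hv, h1 y hy x hx v hv]
      have h6 := Vcomm _ ((hUmem _).1 (hVK' x hx v hv)).1 _ ((hUmem _).1 (hVK' y hy v hv)).1
      generalize x * v * x⁻¹ * v⁻¹ = α at h6 ⊢
      generalize y * v * y⁻¹ * v⁻¹ = β at h6 ⊢
      rw [← mul_assoc, h6, mul_assoc]
    have h4 := h3 ((y * x)⁻¹ * v * (y * x)) (by
      have := Vn v hv (y * x)⁻¹
      rwa [inv_inv] at this)
    calc x * y * x⁻¹ * y⁻¹ * v = ((x * y) * ((y * x)⁻¹ * v * (y * x)) * (x * y)⁻¹) * (x * y * x⁻¹ * y⁻¹) := by group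
      _ = ((y * x) * ((y * x)⁻¹ * v * (y * x)) * (y * x)⁻¹) * (x * y * x⁻¹ * y⁻¹) := by rw [h4]
      _ = _ := by group
  have hsK : ∀ x ∈ K, x * x ∈ V := by
    intro x hx
    apply hCV
    intro v hv
    have h3 := hVK' x hx v hv
    have h5 := (hKmem x).1 hx _ h3
    have h6 := Vsq _ ((hUmem _).1 h3).1
    have h7 : (x * x) * v * (x * x)⁻¹ = v := by
      calc (x * x) * v * (x * x)⁻¹ = (x * (x * v * x⁻¹ * v⁻¹)) * v * x⁻¹ := by group
        _ = ((x * v * x⁻¹ * v⁻¹) * x) * v * x⁻¹ := by rw [h5]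
        _ = ((x * v * x⁻¹ * v⁻¹) * (x * v * x⁻¹ * v⁻¹)) * v := by group
        _ = v := by rw [h6, one_mul]
    rwa [mul_inv_eq_iff_eq_mul] at h7
  have hK64 : Nat.card K ≤ 64 := by
    by_cases haK : a ∈ K
    · have hKG : K ≤ G := by
        intro s hs
        rw [hG]
        exact hcK s hs a haK
      rw [← hG64]; exact Subgroup.card_le_of_le hKG
    · have hGK : Nat.card ↥(K ⊓ G) ≤ 32 := by
        obtain ⟨c, hc⟩ := pow_two h2 (inf_le_right : K ⊓ G ≤ G)
        rcases c with _ | c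
        · exfalso
          rw [pow_zero, one_mul] at hc
          have := Subgroup.eq_of_le_of_card_ge (inf_le_right : K ⊓ G ≤ G) hc.le
          rw [← this] at haG
          exact haK (Subgroup.mem_inf.1 haG).1
        · rw [hG64, pow_succ] at hc
          have : 1 ≤ 2 ^ c := Nat.one_le_two_pow
          nlinarith
      have h1 := fixed_points K V (K ⊓ G) a haa hVK
        (fun s hs => by have := hKn a s hs; rwa [hai] at this)
        (fun s hs => by have := Vn s hs a; rwa [hai] at this) hcK hsK (by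
          intro s
          rw [Subgroup.mem_inf, hG]
          refine and_congr_right fun _ => ?_
          rw [hai]
          constructor
          · intro h
            have h3 := Vn _ h s⁻¹
            have h4 := V.inv_mem h3
            have e : (s⁻¹ * (s * a * s⁻¹ * a) * s⁻¹⁻¹)⁻¹ = s⁻¹ * (a⁻¹ * s * a⁻¹) := by group
            rw [e, hai] at h4
            exact h4
          · intro h
            have h3 := Vn _ h s
            have h4 := V.inv_mem h3
            have e : (s * (s⁻¹ * (a * s * a)) * s⁻¹)⁻¹ = s * a⁻¹ * s⁻¹ * a⁻¹ := by group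
            rw [e, hai] at h4
            exact h4)
      rw [V16] at h1
      nlinarith
  have hS128 : Nat.card S ≤ 128 := by omega
  refine f16 h2 V Vn Vcomm Vsq V16 hCV G hVG hfree hS128 (by rw [hG64]; omega) ?_
  intro h128
  by_contra hno
  push Not at hno
  have : G = ⊤ := by
    rw [Subgroup.eq_top_iff']
    intro s
    rw [hG]
    exact hno s a haG
  rw [this, Subgroup.card_top, h128] at hG64
  omega

end Cfsg.Agent.H78.HarG
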