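import Mathlib
import Cfsg.Agent.S4502
import Cfsg.Agent.CharBase.Column
import Cfsg.Prelude.Def_DegreeGraph

/-! Degree primes of `A₇` (for S3668): primes dividing the order once, with self-centralizing Sylow subgroup. -/

set_option autoImplicit false

namespace Cfsg.Agent.H78.A7V

open Cfsg Subgroup

/-- class number of a Frobenius-like group with self-centralizing normal subgroup of prime order `p` is at most `p` -/
theorem card_conj_le {N : Type*} [Group N] [Finite N] (P : Subgroup N) {p : ℕ} (hp : p.Prime) (hP : Nat.card P = p)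
    (hC : ∀ x ∈ P, x ≠ 1 → ∀ c : N, c * x = x * c → c ∈ P) (hN : P.Normal) :
    Nat.card (ConjClasses N) ≤ p := by
  classical
  haveI := Fintype.ofFinite N
  set e := P.index with he
  have hcard : Nat.card N = p * e := by rw [← hP, he]; exact (Subgroup.card_mul_index P).symm
  have hNpos : 0 < Nat.card N := Nat.card_pos
  have hppos : 0 < p := hp.pos
  have hepos : 0 < e := Nat.pos_of_ne_zero (fun h => by rw [h, mul_zero] at hcard; omega)
  -- centralizers
  have c1 : ∀ x ∈ P, x ≠ 1 → Nat.card (centralizer ({x} : Set N)) ≤ p := by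
    intro x hx hx1
    rw [← hP]
    apply Nat.card_le_card_of_injective (fun c : centralizer ({x} : Set N) => (⟨c, hC x hx hx1 c
      (mem_centralizer_singleton_iff.1 c.2)⟩ : P))
    intro a b h
    exact Subtype.ext (congrArg (fun z : P => (z : N)) h)
  have c2 : ∀ x : N, x ∉ P → Nat.card (centralizer ({x} : Set N)) ≤ e := by
    intro x hx
    have : Nat.card (N ⧸ P) = e := rfl
    rw [← this]
    apply Nat.card_le_card_of_injective (fun c : centralizer ({x} : Set N) => ((c : N) : N ⧸ P))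
    intro a b h
    have h1 : (a : N)⁻¹ * (b : N) ∈ P := QuotientGroup.eq.1 h
    have ha : (a : N) * x = x * a := mem_centralizer_singleton_iff.1 a.2
    have hb : (b : N) * x = x * b := mem_centralizer_singleton_iff.1 b.2
    by_contra hne
    have h2 : (a : N)⁻¹ * (b : N) ≠ 1 := by
      intro h3
      exact hne (Subtype.ext (inv_mul_eq_one.1 h3))
    have hca : Commute (a : N) x := ha
    have hcb : Commute (b : N) x := hb
    have h3 : x * ((a : N)⁻¹ * b) = ((a : N)⁻¹ * b) * x := (hca.inv_left.mul_left hcb).eq.symm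
    exact hx (hC _ h1 h2 x h3)
  -- e ≤ p - 1
  have hP1 : ∃ x ∈ P, x ≠ 1 := by
    by_contra hcon
    push Not at hcon
    have : P = ⊥ := (Subgroup.eq_bot_iff_forall P).2 hcon
    rw [this] at hP
    simp at hP
    exact hp.one_lt.ne hP
  have he1 : e ≤ p - 1 := by
    obtain ⟨x, hx, hx1⟩ := hP1
    -- N acts on P \ {1}
    have h2 := card_mul_index (centralizer ({x} : Set N))
    have h3 : (centralizer ({x} : Set N)).index ≤ p - 1 := by
      have h4 : Nat.card {y : P // y ≠ 1} = p - 1 := by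
        rw [← hP]
        have := Nat.card_eq_fintype_card (α := P)
        haveI := Fintype.ofFinite P
        rw [Nat.card_eq_fintype_card, Nat.card_eq_fintype_card, Fintype.card_subtype_compl, Fintype.card_subtype_eq]
      rw [← h4]
      have h5 : (centralizer ({x} : Set N)).index = Nat.card (N ⧸ centralizer ({x} : Set N)) := rfl
      rw [h5]
      have hwd : ∀ a b : N, (a : N ⧸ centralizer ({x} : Set N)) = b ↔ a * x * a⁻¹ = b * x * b⁻¹ := by
        intro a b
        rw [QuotientGroup.eq, mem_centralizer_singleton_iff]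
        constructor
        · intro h
          have : b = a * (a⁻¹ * b) := by group
          calc a * x * a⁻¹ = a * (x * (a⁻¹ * b)) * b⁻¹ := by group
            _ = a * (a⁻¹ * b * x) * b⁻¹ := by rw [h]
            _ = b * x * b⁻¹ := by group
        · intro h
          calc a⁻¹ * b * x = a⁻¹ * (b * x * b⁻¹) * b := by group
            _ = a⁻¹ * (a * x * a⁻¹) * b := by rw [h]
            _ = x * (a⁻¹ * b) := by group
      let f : N ⧸ centralizer ({x} : Set N) → {y : P // y ≠ 1} := fun q =>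
        ⟨⟨q.out * x * q.out⁻¹, hN.conj_mem x hx _⟩, fun h => by
          have h6 : q.out * x * q.out⁻¹ = 1 := congrArg Subtype.val h
          exact hx1 (conj_eq_one_iff.1 h6)⟩
      apply Nat.card_le_card_of_injective f
      intro q q' h
      have h6 : q.out * x * q.out⁻¹ = q'.out * x * q'.out⁻¹ := congrArg (fun z => ((z : P) : N)) (congrArg Subtype.val h)
      have h7 := (hwd _ _).2 h6
      simpa using h7
    have h6 := c1 x hx hx1
    have h7 : p * e ≤ p * (p - 1) := by
      rw [← hcard, ← h2]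
      exact Nat.mul_le_mul h6 h3
    exact Nat.le_of_mul_le_mul_left h7 hppos
  -- count commuting pairs
  have hpairs : Nat.card {q : N × N // Commute q.1 q.2} ≤ p * e + (p - 1) * p + (p * e - p) * e := by
    have h1 : Nat.card {q : N × N // Commute q.1 q.2} = ∑ x : N, Nat.card (centralizer ({x} : Set N)) := by
      rw [← Nat.card_sigma]
      refine Nat.card_congr ⟨fun q => ⟨q.1.1, ⟨q.1.2, mem_centralizer_singleton_iff.2 q.2.symm.eq⟩⟩,
        fun q => ⟨(q.1, q.2.1), (mem_centralizer_singleton_iff.1 q.2.2 : Commute q.2.1 q.1).symm⟩, ?_, ?_⟩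
      · intro q; rfl
      · intro q; rfl
    rw [h1]
    have h2 : ∀ x : N, Nat.card (centralizer ({x} : Set N)) ≤
        (if x = 1 then p * e - p else 0) + (if x ∈ P then p - e else 0) + e := by
      intro x
      by_cases hx1 : x = 1
      · subst hx1
        rw [if_pos rfl, if_pos P.one_mem]
        have : Nat.card (centralizer ({1} : Set N)) ≤ Nat.card N := Nat.card_le_card_of_injective _ Subtype.val_injective
        rw [hcard] at this
        have h3 : p ≤ p * e := Nat.le_mul_of_pos_right p hepos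
        omega
      · rw [if_neg hx1]
        by_cases hxP : x ∈ P
        · rw [if_pos hxP]
          have := c1 x hxP hx1
          omega
        · rw [if_neg hxP]
          have := c2 x hxP
          omega
    refine (Finset.sum_le_sum fun x _ => h2 x).trans ?_
    rw [Finset.sum_add_distrib, Finset.sum_add_distrib, Finset.sum_ite_eq' Finset.univ (1 : N) (fun _ => p * e - p),
      if_pos (Finset.mem_univ _), ← Finset.sum_filter, Finset.sum_const, Finset.sum_const, smul_eq_mul, smul_eq_mul]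
    have h3 : (Finset.univ.filter (fun x : N => x ∈ P)).card = p := by
      rw [← hP, Nat.card_eq_fintype_card, Fintype.card_subtype]
    rw [h3, Finset.card_univ, ← Nat.card_eq_fintype_card, hcard]
    obtain ⟨a, ha⟩ : ∃ a, p = e + a := ⟨p - e, by omega⟩
    obtain ⟨b, hb⟩ : ∃ b, e = b + 1 := ⟨e - 1, by omega⟩
    have e1 : p - e = a := by omega
    have e2 : p * e - p = p * b := by rw [hb, mul_add, mul_one, Nat.add_sub_cancel]
    have e3 : p - 1 = b + a := by omega
    rw [e1, e2, e3, ha, hb]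
    apply le_of_eq
    ring
  have hle : p * e + (p - 1) * p + (p * e - p) * e ≤ p * Nat.card N := by
    rw [hcard]
    obtain ⟨a, ha⟩ : ∃ a, p = e + a := ⟨p - e, by omega⟩
    obtain ⟨b, hb⟩ : ∃ b, e = b + 1 := ⟨e - 1, by omega⟩
    have e2 : p * e - p = p * b := by rw [hb, mul_add, mul_one, Nat.add_sub_cancel]
    obtain ⟨d, hd⟩ : ∃ d, a = d + 1 := ⟨a - 1, by omega⟩
    have e3 : p - 1 = b + a := by omega
    rw [e2, e3, ha, hb, hd]
    nlinarith [Nat.zero_le (b * d), Nat.zero_le (b * d * b), Nat.zero_le (b * d * d), Nat.zero_le b, Nat.zero_le d]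
  rw [card_comm_eq_card_conjClasses_mul_card] at hpairs
  exact Nat.le_of_mul_le_mul_right (hpairs.trans hle) hNpos

/-- `p` is a degree prime if it divides `|G|` once, there is a self-centralizing element of order `p`, and `k(G) > p`. -/
theorem mem_degreePrimes {G : Type*} [Group G] [Finite G] {p : ℕ} (hp : p.Prime) (h1 : p ∣ Nat.card G)
    (h2 : ¬ p ^ 2 ∣ Nat.card G) (g : G) (hg : orderOf g = p) (hC : ∀ c : G, c * g = g * c → c ∈ zpowers g)
    (hk : p < Nat.card (ConjClasses G)) : p ∈ Cfsg.degreePrimes G := by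
  haveI : Fact p.Prime := ⟨hp⟩
  refine ⟨hp, ?_⟩
  -- the Sylow subgroup
  have hgp : IsPGroup p (zpowers g) := IsPGroup.of_card (n := 1) (by rw [Nat.card_zpowers, hg, pow_one])
  obtain ⟨S, hS⟩ := hgp.exists_le_sylow
  have hScard : Nat.card (S : Subgroup G) = p := by
    obtain ⟨k, hk⟩ := (IsPGroup.iff_card (p := p)).1 S.isPGroup'
    have h3 : Nat.card (S : Subgroup G) ∣ Nat.card G := Subgroup.card_subgroup_dvd_card _
    have h4 : k < 2 := by
      by_contra hc
      exact h2 ((pow_dvd_pow p (not_lt.1 hc)).trans (hk ▸ h3))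
    have h5 : Nat.card (zpowers g) ∣ Nat.card (S : Subgroup G) := Subgroup.card_dvd_of_le hS
    rw [Nat.card_zpowers, hg, hk] at h5
    interval_cases k
    · simp at h5; exact absurd h5 hp.ne_one
    · simpa using hk
  have hSeq : (zpowers g : Subgroup G) = S := by
    apply Subgroup.eq_of_le_of_card_ge hS
    rw [hScard, Nat.card_zpowers, hg]
  by_contra hcon
  have hno : ∀ χ : Cfsg.IrrCharacter G, ¬ p ∣ Cfsg.charDegree (χ : G → ℂ) := fun χ hχ =>
    hcon ⟨_, ⟨χ, rfl⟩, hχ⟩
  have h5 := Cfsg.Agent.S4502.result p h1 h2 S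
  have h6 : Nat.card {χ : Cfsg.IrrCharacter G // ¬ p ∣ Cfsg.charDegree (χ : G → ℂ)} = Nat.card (Cfsg.IrrCharacter G) :=
    Nat.card_congr (Equiv.subtypeUnivEquiv hno)
  rw [h6, Cfsg.Agent.CharBase.card_irr_eq_card_conjClasses] at h5
  -- bound the class number of the normalizer
  set N := Subgroup.normalizer ((S : Subgroup G) : Set G) with hN
  have hSN : (S : Subgroup G) ≤ N := Subgroup.le_normalizer
  have h7 : Nat.card (ConjClasses N) ≤ p := by
    refine card_conj_le ((S : Subgroup G).subgroupOf N) hp ?_ ?_ ?_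
    · rw [Nat.card_congr (Subgroup.subgroupOfEquivOfLe hSN).toEquiv, hScard]
    · rintro ⟨x, hxN⟩ hx hx1 ⟨c, hcN⟩ hc
      rw [Subgroup.mem_subgroupOf] at hx ⊢
      change x ∈ (S : Subgroup G) at hx
      change c ∈ (S : Subgroup G)
      have hc' : c * x = x * c := congrArg Subtype.val hc
      have hx1' : x ≠ 1 := fun h => hx1 (Subtype.ext h)
      -- g ∈ zpowers x
      have hz : zpowers x = (S : Subgroup G) := by
        apply Subgroup.eq_of_le_of_card_ge (by rwa [zpowers_le])
        rw [hScard, Nat.card_zpowers]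
        have h8 : orderOf x ∣ p := by
          rw [← hScard]
          have := orderOf_dvd_natCard (⟨x, hx⟩ : (S : Subgroup G))
          rwa [Subgroup.orderOf_mk] at this
        rcases (Nat.dvd_prime hp).1 h8 with h9 | h9
        · exact absurd (orderOf_eq_one_iff.1 h9) hx1'
        · exact h9.ge
      have hgx : g ∈ zpowers x := by rw [hz]; exact hS (mem_zpowers g)
      obtain ⟨i, hi⟩ := mem_zpowers_iff.1 hgx
      rw [← hSeq]
      apply hC
      rw [← hi]
      exact ((show Commute c x from hc').zpow_right i).eq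
    · exact Subgroup.normal_subgroupOf_of_le_normalizer le_rfl
  omega

/-! ### `A₇` -/

abbrev A7 := alternatingGroup (Fin 7)

theorem card_A7 : Nat.card A7 = 2520 := by
  change Nat.card (alternatingGroup (Fin 7)) = 2520
  have h := two_mul_nat_card_alternatingGroup (α := Fin 7)
  rw [Nat.card_eq_fintype_card (α := Equiv.Perm (Fin 7)), Fintype.card_perm, Fintype.card_fin] at h
  have : Nat.factorial 7 = 5040 := rfl
  omega

def g7 : Equiv.Perm (Fin 7) := finRotate 7

def g5 : Equiv.Perm (Fin 7) := Equiv.swap 0 1 * Equiv.swap 1 2 * Equiv.swap 2 3 * Equiv.swap 3 4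

theorem g7_pow : ∀ k i : Fin 7, (g7 ^ (k : ℕ)) i = k + i := by decide +kernel

theorem g7_apply : ∀ i : Fin 7, g7 i = i + 1 := by decide +kernel

theorem cent7 (c : Equiv.Perm (Fin 7)) (h : c * g7 = g7 * c) : ∃ k : ℕ, c = g7 ^ k := by
  have h1 : ∀ i : Fin 7, c (i + 1) = c i + 1 := by
    intro i
    have := congrArg (fun f : Equiv.Perm (Fin 7) => f i) h
    simpa [g7_apply] using this
  have e1 : c 1 = c 0 + 1 := h1 0
  have e2 : c 2 = c 0 + 2 := by have := h1 1; rw [e1] at this; exact this.trans (by rw [add_assoc]; rfl)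
  have e3 : c 3 = c 0 + 3 := by have := h1 2; rw [e2] at this; exact this.trans (by rw [add_assoc]; rfl)
  have e4 : c 4 = c 0 + 4 := by have := h1 3; rw [e3] at this; exact this.trans (by rw [add_assoc]; rfl)
  have e5 : c 5 = c 0 + 5 := by have := h1 4; rw [e4] at this; exact this.trans (by rw [add_assoc]; rfl)
  have e6 : c 6 = c 0 + 6 := by have := h1 5; rw [e5] at this; exact this.trans (by rw [add_assoc]; rfl)
  refine ⟨(c 0 : ℕ), ?_⟩
  ext i
  rw [g7_pow (c 0) i]
  congr 1
  fin_cases i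
  · change c 0 = c 0 + 0; rw [add_zero]
  · exact e1
  · exact e2
  · exact e3
  · exact e4
  · exact e5
  · exact e6

theorem key5 : ∀ k : Fin 7, g5 k ≠ k → ∃ n : Fin 5, (g5 ^ (n : ℕ)) 0 = k ∧ (g5 ^ (n : ℕ)) 1 = g5 k ∧
    (g5 ^ (n : ℕ)) 2 = g5 (g5 k) ∧ (g5 ^ (n : ℕ)) 3 = g5 (g5 (g5 k)) ∧ (g5 ^ (n : ℕ)) 4 = g5 (g5 (g5 (g5 k))) := by
  decide +kernel

theorem fix5 : ∀ a b : Fin 7, g5 a = a → g5 b = b → a ≠ b → (a = 5 ∧ b = 6) ∨ (a = 6 ∧ b = 5) := by decide +kernel

theorem g5_pow56 : ∀ n : Fin 5, (g5 ^ (n : ℕ)) 5 = 5 ∧ (g5 ^ (n : ℕ)) 6 = 6 := by decide +kernel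

theorem g5_vals : g5 0 = 1 ∧ g5 1 = 2 ∧ g5 2 = 3 ∧ g5 3 = 4 ∧ g5 4 = 0 ∧ g5 5 = 5 ∧ g5 6 = 6 := by decide +kernel

theorem sign_g5 : Equiv.Perm.sign g5 = 1 := by decide +kernel

theorem sign_g7 : Equiv.Perm.sign g7 = 1 := by decide +kernel

theorem cent5 (c : Equiv.Perm (Fin 7)) (hs : Equiv.Perm.sign c = 1) (h : c * g5 = g5 * c) : ∃ k : ℕ, c = g5 ^ k := by
  have h1 : ∀ i : Fin 7, c (g5 i) = g5 (c i) := by
    intro i
    exact congrArg (fun f : Equiv.Perm (Fin 7) => f i) h
  obtain ⟨v0, v1, v2, v3, v4, v5, v6⟩ := g5_vals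
  have e1 : c 1 = g5 (c 0) := by rw [← h1, v0]
  have e2 : c 2 = g5 (g5 (c 0)) := by rw [← e1, ← h1, v1]
  have e3 : c 3 = g5 (g5 (g5 (c 0))) := by rw [← e2, ← h1, v2]
  have e4 : c 4 = g5 (g5 (g5 (g5 (c 0)))) := by rw [← e3, ← h1, v3]
  have e5 : g5 (c 5) = c 5 := by rw [← h1, v5]
  have e6 : g5 (c 6) = c 6 := by rw [← h1, v6]
  have h0 : g5 (c 0) ≠ c 0 := by
    rw [← e1]
    intro h'
    exact absurd (c.injective h') (by decide)
  have h56 : c 5 ≠ c 6 := fun h' => absurd (c.injective h') (by decide)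
  obtain ⟨n, n0, n1, n2, n3, n4⟩ := key5 (c 0) h0
  obtain ⟨n5, n6⟩ := g5_pow56 n
  rcases fix5 _ _ e5 e6 h56 with ⟨a5, a6⟩ | ⟨a5, a6⟩
  · refine ⟨(n : ℕ), ?_⟩
    apply Equiv.ext
    intro i
    fin_cases i
    · exact n0.symm
    · exact e1.trans n1.symm
    · exact e2.trans n2.symm
    · exact e3.trans n3.symm
    · exact e4.trans n4.symm
    · exact a5.trans n5.symm
    · exact a6.trans n6.symm
  · exfalso
    have hc : c = g5 ^ (n : ℕ) * Equiv.swap 5 6 := by
      apply Equiv.ext
      intro i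
      rw [Equiv.Perm.mul_apply]
      fin_cases i
      · change c 0 = (g5 ^ (n : ℕ)) (Equiv.swap (5 : Fin 7) 6 0)
        rw [Equiv.swap_apply_of_ne_of_ne (by decide) (by decide)]; exact n0.symm
      · change c 1 = (g5 ^ (n : ℕ)) (Equiv.swap (5 : Fin 7) 6 1)
        rw [Equiv.swap_apply_of_ne_of_ne (by decide) (by decide)]; exact e1.trans n1.symm
      · change c 2 = (g5 ^ (n : ℕ)) (Equiv.swap (5 : Fin 7) 6 2)
        rw [Equiv.swap_apply_of_ne_of_ne (by decide) (by decide)]; exact e2.trans n2.symm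
      · change c 3 = (g5 ^ (n : ℕ)) (Equiv.swap (5 : Fin 7) 6 3)
        rw [Equiv.swap_apply_of_ne_of_ne (by decide) (by decide)]; exact e3.trans n3.symm
      · change c 4 = (g5 ^ (n : ℕ)) (Equiv.swap (5 : Fin 7) 6 4)
        rw [Equiv.swap_apply_of_ne_of_ne (by decide) (by decide)]; exact e4.trans n4.symm
      · change c 5 = (g5 ^ (n : ℕ)) (Equiv.swap (5 : Fin 7) 6 5)
        rw [Equiv.swap_apply_left]; exact a5.trans n6.symm
      · change c 6 = (g5 ^ (n : ℕ)) (Equiv.swap (5 : Fin 7) 6 6)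
        rw [Equiv.swap_apply_right]; exact a6.trans n5.symm
    rw [hc, map_mul, map_pow, sign_g5, one_pow, one_mul, Equiv.Perm.sign_swap (by decide)] at hs
    exact absurd hs (by decide)

/-- invariants of conjugacy classes -/
def inv1 (σ : Equiv.Perm (Fin 7)) : ℕ := (Finset.univ.filter (fun i => σ i = i)).card

theorem inv1_conj (τ σ : Equiv.Perm (Fin 7)) : inv1 (τ * σ * τ⁻¹) = inv1 σ := by
  unfold inv1
  symm
  apply Finset.card_bij (fun i _ => τ i)
  · intro i hi
    rw [Finset.mem_filter] at hi ⊢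
    refine ⟨Finset.mem_univ _, ?_⟩
    simp [Equiv.Perm.mul_apply, hi.2]
  · intro i _ j _ h; exact τ.injective h
  · intro j hj
    rw [Finset.mem_filter] at hj
    refine ⟨τ⁻¹ j, ?_, by simp⟩
    rw [Finset.mem_filter]
    refine ⟨Finset.mem_univ _, ?_⟩
    have := hj.2
    rw [Equiv.Perm.mul_apply, Equiv.Perm.mul_apply] at this
    apply τ.injective
    rw [this]; simp

def el : Fin 8 → Equiv.Perm (Fin 7) := ![1, Equiv.swap 0 1 * Equiv.swap 2 3, Equiv.swap 0 1 * Equiv.swap 1 2,
  (Equiv.swap 0 1 * Equiv.swap 1 2) * (Equiv.swap 3 4 * Equiv.swap 4 5),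
  Equiv.swap 0 1 * Equiv.swap 2 3 * (Equiv.swap 4 5 * Equiv.swap 5 6),
  Equiv.swap 0 1 * Equiv.swap 1 2 * Equiv.swap 2 3 * Equiv.swap 4 5, g5, g7]

theorem sign_el : ∀ j : Fin 8, Equiv.Perm.sign (el j) = 1 := by decide +kernel

theorem el_inj : ∀ i j : Fin 8, inv1 (el i) = inv1 (el j) → inv1 (el i * el i) = inv1 (el j * el j) → i = j := by
  decide +kernel

theorem eight_le : 8 ≤ Nat.card (ConjClasses A7) := by
  have h : Function.Injective (fun j : Fin 8 => ConjClasses.mk (⟨el j, sign_el j⟩ : A7)) := by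
    intro i j h
    have h1 : IsConj (⟨el i, sign_el i⟩ : A7) ⟨el j, sign_el j⟩ := ConjClasses.mk_eq_mk_iff_isConj.1 h
    obtain ⟨c, hc⟩ := isConj_iff.1 h1
    have h2 : (c : Equiv.Perm (Fin 7)) * el i * (c : Equiv.Perm (Fin 7))⁻¹ = el j := congrArg Subtype.val hc
    apply el_inj
    · rw [← h2, inv1_conj]
    · rw [← h2]
      have : (c : Equiv.Perm (Fin 7)) * el i * (c : Equiv.Perm (Fin 7))⁻¹ *
        ((c : Equiv.Perm (Fin 7)) * el i * (c : Equiv.Perm (Fin 7))⁻¹) = c * (el i * el i) * (c : Equiv.Perm (Fin 7))⁻¹ := by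
        group
      rw [this, inv1_conj]
  have := Nat.card_le_card_of_injective _ h
  simpa using this

/-- [A7V] -/
theorem a7v : 5 ∈ Cfsg.degreePrimes (alternatingGroup (Fin 7)) ∧ 7 ∈ Cfsg.degreePrimes (alternatingGroup (Fin 7)) := by
  have h8 : 8 ≤ Nat.card (ConjClasses (alternatingGroup (Fin 7))) := eight_le
  have h9 : Nat.card (alternatingGroup (Fin 7)) = 2520 := card_A7
  constructor
  · refine mem_degreePrimes (by norm_num) (by rw [h9]; norm_num) (by rw [h9]; norm_num)
      (⟨g5, Equiv.Perm.mem_alternatingGroup.2 sign_g5⟩ : alternatingGroup (Fin 7)) ?_ ?_ (by omega)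
    · rw [Subgroup.orderOf_mk]
      haveI : Fact (Nat.Prime 5) := ⟨by norm_num⟩
      exact orderOf_eq_prime (p := 5) (by decide +kernel) (by decide +kernel)
    · rintro ⟨c, hc⟩ h
      obtain ⟨k, hk⟩ := cent5 c hc (congrArg Subtype.val h)
      exact mem_zpowers_iff.2 ⟨(k : ℤ), by rw [zpow_natCast]; exact Subtype.ext hk.symm⟩
  · refine mem_degreePrimes (by norm_num) (by rw [h9]; norm_num) (by rw [h9]; norm_num)
      (⟨g7, Equiv.Perm.mem_alternatingGroup.2 sign_g7⟩ : alternatingGroup (Fin 7)) ?_ ?_ (by omega)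
    · rw [Subgroup.orderOf_mk]
      haveI : Fact (Nat.Prime 7) := ⟨by norm_num⟩
      exact orderOf_eq_prime (p := 7) (by decide +kernel) (by decide +kernel)
    · rintro ⟨c, hc⟩ h
      obtain ⟨k, hk⟩ := cent7 c (congrArg Subtype.val h)
      exact mem_zpowers_iff.2 ⟨(k : ℤ), by rw [zpow_natCast]; exact Subtype.ext hk.symm⟩

end Cfsg.Agent.H78.A7V
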