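import Mathlib
import Cfsg.Agent.BlkInd.DegPr
import Cfsg.Agent.BlkC.Basic

/-! Degree primes of nonsolvable groups with three prime divisors (for S3668). -/

set_option autoImplicit false

namespace Cfsg.Agent.H78.L33V

open Cfsg

/-- degree primes divide the group order -/
theorem dvd_card {G : Type*} [Group G] [Finite G] {p : ℕ} (h : p ∈ Cfsg.degreePrimes G) : p.Prime ∧ p ∣ Nat.card G := by
  obtain ⟨hp, d, ⟨χ, hχ⟩, hd⟩ := h
  refine ⟨hp, ?_⟩
  rw [← hχ] at hd
  exact hd.trans (Cfsg.Agent.BlkC.charDegree_dvd_card χ)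

/-- a nonsolvable group with only three prime divisors: all are degree primes -/
theorem three {G : Type*} [Group G] [Finite G] (hG : ¬ Group.IsSolvable G) {a b c : ℕ}
    (h : ∀ p : ℕ, p.Prime → p ∣ Nat.card G → p = a ∨ p = b ∨ p = c) :
    a ∈ Cfsg.degreePrimes G ∧ b ∈ Cfsg.degreePrimes G ∧ c ∈ Cfsg.degreePrimes G := by
  obtain ⟨p, q, r, hpq, hqr, hpr, hp, hq, hr⟩ := Cfsg.Agent.BlkInd.three_degreePrimes _ G rfl hG
  have h1 := h p (dvd_card hp).1 (dvd_card hp).2
  have h2 := h q (dvd_card hq).1 (dvd_card hq).2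
  have h3 := h r (dvd_card hr).1 (dvd_card hr).2
  rcases h1 with rfl | rfl | rfl <;> rcases h2 with rfl | rfl | rfl <;> rcases h3 with rfl | rfl | rfl <;>
    first
      | exact absurd rfl hpq
      | exact absurd rfl hqr
      | exact absurd rfl hpr
      | exact ⟨by assumption, by assumption, by assumption⟩

/-- order 5616 -/
theorem v3 {G : Type*} [Group G] [Finite G] (hG : ¬ Group.IsSolvable G) (h : Nat.card G = 5616) :
    3 ∈ Cfsg.degreePrimes G ∧ 13 ∈ Cfsg.degreePrimes G := by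
  have h1 : ∀ p : ℕ, p.Prime → p ∣ Nat.card G → p = 2 ∨ p = 3 ∨ p = 13 := by
    intro p hp hd
    rw [h, show (5616 : ℕ) = 2 ^ 4 * (3 ^ 3 * 13) by norm_num] at hd
    rcases (Nat.Prime.dvd_mul hp).1 hd with hd | hd
    · left; exact (Nat.prime_dvd_prime_iff_eq hp Nat.prime_two).1 (hp.dvd_of_dvd_pow hd)
    · rcases (Nat.Prime.dvd_mul hp).1 hd with hd | hd
      · right; left; exact (Nat.prime_dvd_prime_iff_eq hp Nat.prime_three).1 (hp.dvd_of_dvd_pow hd)
      · right; right; exact (Nat.prime_dvd_prime_iff_eq hp (by norm_num)).1 hd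
  obtain ⟨-, h3, h13⟩ := three hG h1
  exact ⟨h3, h13⟩

end Cfsg.Agent.H78.L33V
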